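import Cfsg.Agent.Lib.St.LieP
import Cfsg.Agent.Lib.Block.Height
import Cfsg.Agent.Lib.Modular.Basic
import Cfsg.Agent.Lib.Char.Central

/-!
Gow's theorem: in a finite group of Lie type every non-central semisimple element is a product of
conjugates of two given regular semisimple elements.
-/

set_option autoImplicit false

namespace Cfsg.Lib.St

open Cfsg.Lib.Block Cfsg.Lib.Char Cfsg.Lib.Modular Subgroup
open scoped ComplexConjugate

variable {p : ℕ} {G : Type*} [Group G] [Finite G] [hp : Fact p.Prime] (L : LieP p G)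

include L in
theorem LieP.dvd_index {g : G} (hg : ¬ p ∣ orderOf g) (hc : g ∉ center G) :
    p ∣ (centralizer ({g} : Set G)).index := by
  by_contra h
  obtain ⟨P⟩ : Nonempty (Sylow p (centralizer ({g} : Set G))) := inferInstance
  have h1 : ¬ p ∣ ((P : Subgroup (centralizer ({g} : Set G))).map (Subgroup.subtype _)).index := by
    rw [index_map_subtype, hp.out.dvd_mul, not_or]
    exact ⟨P.not_dvd_index, h⟩
  obtain ⟨y, hy⟩ := L.S.exists_conj_sylow ((P.isPGroup'.map _).toSylow h1)
  have h2 := L.cent ∅ Set.empty_ne_univ (y * g * y⁻¹) (by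
    rw [L.S.V_empty, mem_centralizer_iff]
    intro u hu
    obtain ⟨z, -, hz⟩ := (hy u).1 hu
    have h3 := mem_centralizer_singleton_iff.1 z.2
    rw [show (z : G) = y⁻¹ * u * y from hz] at h3
    calc _ = y * (y⁻¹ * u * y * g) * y⁻¹ := by group
      _ = _ := by rw [h3]; group) (by rwa [← MulAut.conj_apply, MulEquiv.orderOf_eq])
  apply hc
  have h3 := mem_center_iff.1 h2 y⁻¹
  rw [show g = y * g * y⁻¹ by
    calc g = y⁻¹ * (y * g * y⁻¹) * y := by group
      _ = _ := by rw [h3]; group]
  exact h2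

/-- **Gow's theorem.** -/
theorem LieP.gow (hgen : normalClosure (L.S.U : Set G) = ⊤) {x y g : G}
    (hx : ¬ p ∣ Nat.card (centralizer ({x} : Set G))) (hy : ¬ p ∣ Nat.card (centralizer ({y} : Set G)))
    (hg : ¬ p ∣ orderOf g) (hc : g ∉ center G) : ∃ u v, IsConj x u ∧ IsConj y v ∧ u * v = g := by
  classical
  by_contra h
  obtain ⟨M, hM⟩ := exists_isPModular hp.out
  have : Modular p M := ⟨hM⟩
  have h0 := card_class_mul_eq x y g
  have he : IsEmpty {q : G × G // IsConj x q.1 ∧ IsConj y q.2 ∧ q.1 * q.2 = g} :=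
    ⟨fun q => h ⟨_, _, q.2⟩⟩
  rw [Nat.card_of_isEmpty, Nat.cast_zero, eq_comm, mul_eq_zero] at h0
  have h1 := h0.resolve_left (div_ne_zero (mul_ne_zero (Nat.cast_ne_zero.2 index_ne_zero_of_finite)
    (Nat.cast_ne_zero.2 index_ne_zero_of_finite)) (Nat.cast_ne_zero.2 Nat.card_pos.ne'))
  have h2 : ∑ χ : IrrCharacter G, (χ : G → ℂ) x * (χ : G → ℂ) y * centralChar χ g⁻¹ = 0 := by
    rw [← mul_zero ((centralizer ({g⁻¹} : Set G)).index : ℂ), ← h1, Finset.mul_sum]
    refine Finset.sum_congr rfl fun χ _ => ?_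
    rw [centralChar, χ.2.apply_inv]; ring
  have hg' : ¬ p ∣ orderOf g⁻¹ := by rwa [orderOf_inv]
  have hd := L.dvd_index hg' (by rwa [inv_mem_iff])
  let St : IrrCharacter G := ⟨_, L.T.st_irr Finset.coe_univ⟩
  have h3 := congrArg (red M) h2
  rw [red_sum _ _ fun χ _ => mul_mem (mul_mem (irr_mem χ _) (irr_mem χ _))
    (centralChar_mem χ.2 _), red_zero, Finset.sum_eq_single St] at h3
  · have hv : ∀ {z : G}, ¬ p ∣ Nat.card (centralizer ({z} : Set G)) →
        (St : G → ℂ) z = 1 ∨ (St : G → ℂ) z = -1 := fun {z} hz => by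
      have := L.S.st_value Finset.coe_univ hp.out (g := z) fun h => hz (h.trans
        (orderOf_dvd_natCard _ (mem_centralizer_singleton_iff.2 rfl)))
      rwa [Nat.factorization_eq_zero_of_not_dvd hz, pow_zero, Nat.cast_one] at this
    have h4 : red M (centralChar St g⁻¹) ≠ 0 := by
      have h5 := (centralizer ({g⁻¹} : Set G)).index_mul_card
      have h6 : red M ((((centralizer ({g⁻¹} : Set G)).index *
          p ^ (Nat.card (centralizer ({g⁻¹} : Set G))).factorization p : ℕ) : ℂ) /
          (p ^ (Nat.card G).factorization p : ℕ)) ≠ 0 := by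
        refine red_div_natCast_ne_zero (mul_ne_zero index_ne_zero_of_finite
          (pow_ne_zero _ hp.out.ne_zero)) (pow_ne_zero _ hp.out.ne_zero) ?_
        rw [← h5, Nat.factorization_mul index_ne_zero_of_finite Nat.card_pos.ne',
          Nat.factorization_mul index_ne_zero_of_finite (pow_ne_zero _ hp.out.ne_zero)]
        simp [hp.out.factorization_self]
      have h7 : (St : G → ℂ) 1 = (p ^ (Nat.card G).factorization p : ℕ) := by
        rw [← L.S.card_U_eq hp.out]; exact L.S.st_one Finset.coe_univ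
      rw [centralChar, h7]
      rcases L.S.st_value Finset.coe_univ hp.out hg' with h8 | h8 <;>
        rw [show (St : G → ℂ) g⁻¹ = _ from h8]
      · rwa [← Nat.cast_mul]
      · rwa [mul_neg, neg_div, red_neg, neg_ne_zero, ← Nat.cast_mul]
    rcases hv hx with h5 | h5 <;> rcases hv hy with h6 | h6 <;> rw [h5, h6] at h3 <;>
      simp [red_neg, h4] at h3
  · intro χ _ hχ
    have hB := isPBlock_blockOf (M := M) χ
    obtain ⟨ψ, hψ, h4⟩ := exists_height_zero p hB.nonempty
    have h5 := (L.locP.defect hM hB).resolve_left fun h5 => hχ (Subtype.ext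
      (L.S.eq_st_of_defect_zero Finset.coe_univ hp.out hgen χ.2 (by
        rw [← (hB.blockDefect_eq_zero_iff_mem (mem_blockOf_self _)).1 h5]
        exact Nat.ordProj_dvd _ _)))
    rw [blockDefect_eq_of_height_zero hψ h4] at h5
    have h6 : (charDegree (ψ : G → ℂ)).factorization p ≤ (Nat.card G).factorization p :=
      (Nat.factorization_le_iff_dvd ψ.2.charDegree_pos.ne' Nat.card_pos.ne').2 ψ.2.charDegree_dvd_card p
    have h7 : ¬ p ∣ charDegree (ψ : G → ℂ) := fun h7 => by
      have := hp.out.factorization_pos_of_dvd ψ.2.charDegree_pos.ne' h7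
      omega
    rw [red_mul (mul_mem (irr_mem χ _) (irr_mem χ _)) (centralChar_mem χ.2 _),
      (sameBlock_iff_red χ.2 ψ.2).1 hψ, centralChar, ψ.2.apply_one_eq,
      red_div (mul_mem (natCast_mem _ _) (irr_mem ψ _)) (mt (red_natCast_eq_zero_iff _).1 h7),
      red_mul (natCast_mem _ _) (irr_mem ψ _), (red_natCast_eq_zero_iff _).2 hd]
    simp
  · simp

end Cfsg.Lib.St
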